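import Cfsg.Agent.H525.AltK

/-!
# S5929, `n = 6`, `p = 3`, packet C2-rep: the group `A₆` (helper7)

* `real6` : every element of `A₆` is conjugate to its inverse;
* `cls6` : elements of the same order;
* `Tet t1 t2 c` : a Klein four-group `t1, t2` and an element `c` of order three normalizing it; `tet6`.
-/

set_option autoImplicit false

namespace Cfsg.Agent.R2.T1.N6R

open Equiv Equiv.Perm

/-- the alternating group of degree six -/
abbrev A6 := ↥(alternatingGroup (Fin 6))

theorem types6 (t : A6) : (t : Perm (Fin 6)).cycleType = 0 ∨ (t : Perm (Fin 6)).cycleType = {3} ∨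
    (t : Perm (Fin 6)).cycleType = {5} ∨ (t : Perm (Fin 6)).cycleType = {2, 2} ∨
    (t : Perm (Fin 6)).cycleType = {3, 3} ∨ (t : Perm (Fin 6)).cycleType = {4, 2} := by
  have hs := sum_cycleType_le (t : Perm (Fin 6))
  rw [Fintype.card_fin] at hs
  rcases Cfsg.Agent.H525.AltK.mem_types (show 6 ≤ 7 by norm_num) t with h | h | h | h | h | h | h | h
  · exact Or.inl h
  · exact Or.inr (Or.inl h)
  · exact Or.inr (Or.inr (Or.inl h))
  · rw [h] at hs; exact absurd hs (by decide)
  · exact Or.inr (Or.inr (Or.inr (Or.inl h)))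
  · exact Or.inr (Or.inr (Or.inr (Or.inr (Or.inl h))))
  · exact Or.inr (Or.inr (Or.inr (Or.inr (Or.inr h))))
  · rw [h] at hs; exact absurd hs (by decide)

theorem ord6 (t : A6) : orderOf t = (t : Perm (Fin 6)).cycleType.lcm := by
  rw [lcm_cycleType, Subgroup.orderOf_coe]

/-- conjugacy in `A₆`, if an odd permutation commutes with the representative -/
theorem conj6 {r g : A6} (hct : (r : Perm (Fin 6)).cycleType = (g : Perm (Fin 6)).cycleType)
    {κ : Perm (Fin 6)} (hκ : sign κ = -1) (hc : κ * r = r * κ) : IsConj r g := by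
  obtain ⟨σ, hσ⟩ := isConj_iff.1 (isConj_iff_cycleType_eq.2 hct)
  rcases Int.units_eq_one_or (sign σ) with h3 | h3
  · exact isConj_iff.2 ⟨⟨σ, h3⟩, Subtype.ext hσ⟩
  · refine isConj_iff.2 ⟨⟨σ * κ, ?_⟩, Subtype.ext ?_⟩
    · rw [mem_alternatingGroup, map_mul, h3, hκ]; rfl
    · change σ * κ * (r : Perm (Fin 6)) * (σ * κ)⁻¹ = g
      rw [← hσ]
      calc σ * κ * (r : Perm (Fin 6)) * (σ * κ)⁻¹ = σ * (κ * r) * κ⁻¹ * σ⁻¹ := by group
        _ = σ * (r * κ) * κ⁻¹ * σ⁻¹ := by rw [hc]
        _ = _ := by group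

/-- conjugacy in `A₆`, the general case -/
theorem conj6' {r s g : A6} (hct : (r : Perm (Fin 6)).cycleType = (g : Perm (Fin 6)).cycleType)
    {κ : Perm (Fin 6)} (hκ : sign κ = -1) (hc : κ * s = r * κ) : IsConj r g ∨ IsConj s g := by
  obtain ⟨σ, hσ⟩ := isConj_iff.1 (isConj_iff_cycleType_eq.2 hct)
  rcases Int.units_eq_one_or (sign σ) with h3 | h3
  · exact Or.inl (isConj_iff.2 ⟨⟨σ, h3⟩, Subtype.ext hσ⟩)
  · refine Or.inr (isConj_iff.2 ⟨⟨σ * κ, ?_⟩, Subtype.ext ?_⟩)
    · rw [mem_alternatingGroup, map_mul, h3, hκ]; rfl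
    · change σ * κ * (s : Perm (Fin 6)) * (σ * κ)⁻¹ = g
      rw [← hσ]
      calc σ * κ * (s : Perm (Fin 6)) * (σ * κ)⁻¹ = σ * (κ * s) * κ⁻¹ * σ⁻¹ := by group
        _ = σ * (r * κ) * κ⁻¹ * σ⁻¹ := by rw [hc]
        _ = _ := by group

/-- reality depends only on the cycle type -/
theorem real_of_type6 {r g : A6} (hct : (r : Perm (Fin 6)).cycleType = (g : Perm (Fin 6)).cycleType)
    (hr : IsConj r r⁻¹) : IsConj g g⁻¹ := by
  obtain ⟨σ, hσ⟩ := isConj_iff.1 (isConj_iff_cycleType_eq.2 hct)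
  obtain ⟨y, hy⟩ := isConj_iff.1 hr
  refine isConj_iff.2 ⟨⟨σ * y * σ⁻¹, ?_⟩, Subtype.ext ?_⟩
  · rw [mem_alternatingGroup, map_mul, map_mul, map_inv, mul_right_comm, mul_inv_cancel, one_mul]
    exact y.2
  · change σ * y * σ⁻¹ * (g : Perm (Fin 6)) * (σ * y * σ⁻¹)⁻¹ = (g : Perm (Fin 6))⁻¹
    have hy' : (y : Perm (Fin 6)) * r * (y : Perm (Fin 6))⁻¹ = (r : Perm (Fin 6))⁻¹ := congrArg Subtype.val hy
    rw [← hσ]
    calc σ * y * σ⁻¹ * (σ * (r : Perm (Fin 6)) * σ⁻¹) * (σ * y * σ⁻¹)⁻¹ =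
        σ * (y * r * (y : Perm (Fin 6))⁻¹) * σ⁻¹ := by group
      _ = σ * (r : Perm (Fin 6))⁻¹ * σ⁻¹ := by rw [hy']
      _ = _ := by group

/-- an even permutation -/
def mk6 (p : Perm (Fin 6)) (h : sign p = 1) : A6 := ⟨p, h⟩

/-- **every element of `A₆` is real** -/
theorem real6 (t : A6) : IsConj t t⁻¹ := by
  rcases types6 t with h | h | h | h | h | h
  · have : t = 1 := Subtype.ext (cycleType_eq_zero.1 h)
    rw [this, inv_one]
  · exact real_of_type6 (r := mk6 (swap 0 1 * swap 1 2) (by decide)) (by rw [h]; decide +kernel)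
      (isConj_iff.2 ⟨mk6 (swap 1 2 * swap 3 4) (by decide), by decide⟩)
  · exact real_of_type6 (r := mk6 (swap 0 1 * swap 1 2 * (swap 2 3 * swap 3 4)) (by decide)) (by rw [h]; decide +kernel)
      (isConj_iff.2 ⟨mk6 (swap 1 4 * swap 2 3) (by decide), by decide⟩)
  · exact real_of_type6 (r := mk6 (swap 0 1 * swap 2 3) (by decide)) (by rw [h]; decide +kernel)
      (isConj_iff.2 ⟨1, by decide⟩)
  · exact real_of_type6 (r := mk6 (swap 0 1 * swap 1 2 * (swap 3 4 * swap 4 5)) (by decide)) (by rw [h]; decide +kernel)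
      (isConj_iff.2 ⟨mk6 (swap 1 2 * swap 4 5) (by decide), by decide⟩)
  · exact real_of_type6 (r := mk6 (swap 0 1 * swap 1 2 * swap 2 3 * swap 4 5) (by decide)) (by rw [h]; decide +kernel)
      (isConj_iff.2 ⟨mk6 (swap 0 3 * swap 1 2) (by decide), by decide⟩)

/-- the representative of order 2 -/
def r2 : A6 := mk6 (swap 0 1 * swap 2 3) (by decide)
/-- the representative of order 4 -/
def r4 : A6 := mk6 (swap 0 1 * swap 1 2 * swap 2 3 * swap 4 5) (by decide)
/-- the representative of order 5 -/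
def r5 : A6 := mk6 (swap 0 1 * swap 1 2 * (swap 2 3 * swap 3 4)) (by decide)

/-- elements of the same order -/
theorem cls6 {x y : A6} (hxy : orderOf x = orderOf y) :
    x ^ 3 = 1 ∨ IsConj x y ∨ (orderOf x = 5 ∧ IsConj (x * x) y) := by
  have l3 : (({3} : Multiset ℕ)).lcm = 3 := by decide
  have l5 : (({5} : Multiset ℕ)).lcm = 5 := by decide
  have l2 : (({2, 2} : Multiset ℕ)).lcm = 2 := by decide
  have l33 : (({3, 3} : Multiset ℕ)).lcm = 3 := by decide
  have l4 : (({4, 2} : Multiset ℕ)).lcm = 4 := by decide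
  have l0 : ((0 : Multiset ℕ)).lcm = 1 := by decide
  have h2 : ∀ z : A6, (z : Perm (Fin 6)).cycleType = {2, 2} → IsConj r2 z := fun z hz =>
    conj6 (κ := swap 4 5) (by rw [hz]; decide +kernel) (by decide) (by decide)
  have h4 : ∀ z : A6, (z : Perm (Fin 6)).cycleType = {4, 2} → IsConj r4 z := fun z hz =>
    conj6 (κ := swap 4 5) (by rw [hz]; decide +kernel) (by decide) (by decide)
  have h5 : ∀ z : A6, (z : Perm (Fin 6)).cycleType = {5} → IsConj r5 z ∨ IsConj (r5 * r5) z := fun z hz =>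
    conj6' (s := r5 * r5) (κ := swap 1 3 * swap 3 4 * swap 4 2) (by rw [hz]; decide +kernel) (by decide) (by decide)
  have hx := ord6 x
  have hy := ord6 y
  rcases types6 x with h | h | h | h | h | h
  · left
    rw [show x = 1 from Subtype.ext (cycleType_eq_zero.1 h), one_pow]
  · left
    rw [h, l3] at hx
    rw [← hx, pow_orderOf_eq_one]
  · right
    rw [h, l5] at hx
    rcases types6 y with g | g | g | g | g | g
    · rw [g, l0] at hy; omega
    · rw [g, l3] at hy; omega
    · rcases h5 x h with a | a <;> rcases h5 y g with b | b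
      · exact Or.inl (a.symm.trans b)
      · refine Or.inr ⟨hx, ?_⟩
        obtain ⟨u, hu⟩ := isConj_iff.1 a
        refine IsConj.trans (IsConj.symm (isConj_iff.2 ⟨u, ?_⟩)) b
        rw [← hu]; group
      · refine Or.inr ⟨hx, ?_⟩
        obtain ⟨u, hu⟩ := isConj_iff.1 a
        refine IsConj.trans (IsConj.symm (isConj_iff.2 ⟨u, ?_⟩)) ((real6 r5).symm.trans b)
        rw [← hu, show r5⁻¹ = r5 * r5 * (r5 * r5) by decide]
        group
      · exact Or.inl (a.symm.trans b)
    · rw [g, l2] at hy; omega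
    · rw [g, l33] at hy; omega
    · rw [g, l4] at hy; omega
  · right; left
    rw [h, l2] at hx
    rcases types6 y with g | g | g | g | g | g
    · rw [g, l0] at hy; omega
    · rw [g, l3] at hy; omega
    · rw [g, l5] at hy; omega
    · exact (h2 x h).symm.trans (h2 y g)
    · rw [g, l33] at hy; omega
    · rw [g, l4] at hy; omega
  · left
    rw [h, l33] at hx
    rw [← hx, pow_orderOf_eq_one]
  · right; left
    rw [h, l4] at hx
    rcases types6 y with g | g | g | g | g | g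
    · rw [g, l0] at hy; omega
    · rw [g, l3] at hy; omega
    · rw [g, l5] at hy; omega
    · rw [g, l2] at hy; omega
    · rw [g, l33] at hy; omega
    · exact (h4 x h).symm.trans (h4 y g)

/-- a Klein four-group and an element of order three normalizing it -/
structure Tet {G : Type*} [Group G] (t1 t2 c : G) : Prop where
  s1 : t1 * t1 = 1
  s2 : t2 * t2 = 1
  cm : t1 * t2 = t2 * t1
  c3 : c * c * c = 1
  c1 : c * t1 = t2 * c
  c2 : c * t2 = t1 * t2 * c
  n1 : t1 ≠ 1

/-- the first involution -/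
def u1 : A6 := mk6 (swap 0 1 * swap 2 3) (by decide)
/-- the second involution -/
def u2 : A6 := mk6 (swap 0 2 * swap 1 3) (by decide)
/-- `1 → 2 → 3 → 1` -/
def uc : A6 := mk6 (swap 1 2 * swap 2 3) (by decide)

theorem tet6 : Tet u1 u2 uc := ⟨by decide, by decide, by decide, by decide, by decide, by decide, by decide⟩

end Cfsg.Agent.R2.T1.N6R
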